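import Mathlib
import Cfsg.Agent.ExC.Pair
import Cfsg.Agent.PLocal.StrongPEmb

/-! The principal block argument for extremely closed abelian `p`-subgroups (S3016). -/

set_option autoImplicit false

namespace Cfsg.Agent.ExC

open Cfsg Cfsg.Agent.Char Cfsg.Agent.Block Cfsg.Agent.PLocal Cfsg.Agent.PLocal.Amb Subgroup
open scoped ComplexConjugate

variable {G : Type*} [Group G] [Finite G] {p : ℕ} [hp : Fact p.Prime] {M : Ideal AlgInt}

omit [Finite G] in
theorem dvd_orderOf_of_mem {Q : Subgroup G} (hQ : IsPGroup p Q) {x : G} (hx : x ∈ Q)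
    (h1 : x ≠ 1) : p ∣ orderOf x := by
  by_contra h
  exact h1 (eq_one_of_orderOf_pow_of_not_dvd (orderOf_eq_pow_of_mem hQ hx) h)

/-- the dimension of the principal block is at least the order of a `p`-subgroup -/
theorem card_le_sum_principal (hM : IsPModular p M) {Q : Subgroup G} (hQ : IsPGroup p Q) :
    (Nat.card Q : ℝ) ≤
      (∑ᶠ ξ ∈ principalBlock M G, (ξ : G → ℂ) 1 * conj ((ξ : G → ℂ) 1)).re := by
  classical
  have := Fintype.ofFinite Q
  have h1 : ∑ q : Q, ∑ᶠ ξ ∈ principalBlock M G, (ξ : G → ℂ) q * conj ((ξ : G → ℂ) 1) =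
      ∑ᶠ ξ ∈ principalBlock M G, (ξ : G → ℂ) 1 * conj ((ξ : G → ℂ) 1) := by
    rw [Finset.sum_eq_single 1 (fun q _ hq => sum_mul_conj_eq_zero_of_singular_regular hM
      (val_blockCoeff_principal_le_one hM) (dvd_orderOf_of_mem hQ q.2 (by simpa using hq))
      not_dvd_orderOf_one) (by simp)]
    rfl
  choose m hm using fun ξ : IrrCharacter G => exists_nat_sum (H := Q) ξ.2.isCharacter
  choose d hd0 hd using fun ξ : IrrCharacter G => ξ.2.exists_nat_one
  rw [← h1]
  simp only [finsum_mem_irr_eq_sum]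
  rw [Finset.sum_comm]
  simp only [← Finset.sum_mul, hm, hd, Complex.re_sum]
  have h2 : ∀ ξ, ((Nat.card Q : ℂ) * m ξ * conj (d ξ : ℂ)).re = Nat.card Q * m ξ * d ξ := by
    intro ξ
    rw [Complex.conj_natCast]
    norm_cast
  simp only [h2]
  refine le_trans (le_of_eq ?_) (Finset.single_le_sum (f := fun ξ => (Nat.card Q : ℝ) * m ξ * d ξ)
    (fun ξ _ => by positivity) (Finset.mem_filter.2 ⟨Finset.mem_univ _,
      irrOne_mem_principal hM⟩))
  have h3 := hm (irrOne G)
  have h4 := hd (irrOne G)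
  simp only [irrOne_apply, Finset.sum_const, Finset.card_univ, nsmul_eq_mul, mul_one,
    ← Nat.card_eq_fintype_card] at h3 h4
  have h5 : m (irrOne G) = 1 := by
    have := mul_left_cancel₀ (card_ne_zero Q) ((mul_one _).trans h3)
    exact_mod_cast this.symm
  have h6 : d (irrOne G) = 1 := by exact_mod_cast h4.symm
  simp [h5, h6]

/-- the numerical core -/
theorem numeric {ι : Type*} (B : Finset ι) {o : ι} (ho : o ∈ B) (m d : ι → ℝ) {h : ℝ}
    (h3 : 3 ≤ h) (hd : ∀ i, 0 < d i) (hmo : m o = 1) (hdo : d o = 1)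
    (hb : ∀ i ∈ B, i ≠ o → 2 * m i ≤ d i)
    (e1 : ∑ i ∈ B, d i * (h * m i - d i) = 0)
    (e2 : ∑ i ∈ B, (h * m i) ^ 2 / d i * (h * m i - d i) =
      h * ∑ i ∈ B, h * m i * (h * m i - d i)) :
    (h - 2) * ∑ i ∈ B, h * m i * (h * m i - d i) < h * (h - 1) ^ 2 := by
  classical
  set w : ι → ℝ := fun i => (h * m i - d i) ^ 2 * ((h - 2) / 2 - (h * m i - d i) / d i) with hw
  have h1 : ∑ i ∈ B, w i = -((h - 2) / 2) * ∑ i ∈ B, h * m i * (h * m i - d i) := by
    have : ∀ i ∈ B, w i = (h + 2) / 2 * (h * m i * (h * m i - d i)) -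
        h / 2 * (d i * (h * m i - d i)) - (h * m i) ^ 2 / d i * (h * m i - d i) := by
      intro i _
      have := (hd i).ne'
      simp only [hw]
      field_simp
      ring
    rw [Finset.sum_congr rfl this, Finset.sum_sub_distrib, Finset.sum_sub_distrib,
      ← Finset.mul_sum, ← Finset.mul_sum, e1, e2]
    ring
  obtain ⟨j, hj, hj0⟩ : ∃ j ∈ B, h * m j - d j < 0 := by
    by_contra h0
    push Not at h0
    have := Finset.single_le_sum (f := fun i => d i * (h * m i - d i))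
      (fun i hi => mul_nonneg (hd i).le (h0 i hi)) ho
    simp only [e1, hmo, hdo] at this
    linarith
  have hjo : j ≠ o := by
    rintro rfl
    rw [hmo, hdo] at hj0
    linarith
  have h2 : 0 < ∑ i ∈ B.erase o, w i := by
    refine Finset.sum_pos' (fun i hi => mul_nonneg (sq_nonneg _) ?_)
      ⟨j, Finset.mem_erase.2 ⟨hjo, hj⟩, mul_pos (sq_pos_of_neg hj0) ?_⟩
    · obtain ⟨h4, h5⟩ := Finset.mem_erase.1 hi
      rw [sub_nonneg, div_le_iff₀ (hd i)]
      nlinarith [hb i h5 h4]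
    · have := div_neg_of_neg_of_pos hj0 (hd j)
      linarith
  rw [← Finset.add_sum_erase _ _ ho] at h1
  have h4 : w o = -(h * (h - 1) ^ 2 / 2) := by
    simp only [hw, hmo, hdo]
    ring
  linarith

variable {H : Subgroup G}

theorem step1 (hp2 : p ≠ 2) (hH : IsPGroup p H) (hab : IsMulCommutative H)
    (hcl : IsExtremelyClosed H) (hne : H ≠ ⊥) (hncl : normalClosure (H : Set G) = ⊤)
    (hO : ∀ b ∈ H, b ≠ 1 → ∀ u : centralizer ({b} : Set G), ¬ p ∣ orderOf u →
      (u : G) ∈ H ⊔ cj((u : G), H) → u ∈ pPrimeCore p (centralizer ({b} : Set G))) :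
    (∀ b ∈ H, ∀ t ∈ H, IsConj b t → b = t) ∧ ∀ b ∈ H, b ≠ 1 → ∀ Q : Subgroup G, IsPGroup p Q →
      Q ≤ centralizer ({b} : Set G) → Nat.card Q < 3 * Nat.card H := by
  classical
  obtain ⟨M, hM⟩ := exists_isPModular hp.out
  have := Fintype.ofFinite G
  have := Fintype.ofFinite H
  set B := Finset.univ.filter (· ∈ principalBlock M G) with hB
  set κ : G → G → ℂ := fun x y => ∑ χ ∈ B, (χ : G → ℂ) x * conj ((χ : G → ℂ) y) with hκ
  have hκ' : ∀ x y, ∑ᶠ χ ∈ principalBlock M G, (χ : G → ℂ) x * conj ((χ : G → ℂ) y) = κ x y :=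
    fun x y => finsum_mem_irr_eq_sum _ _
  set E := (Finset.univ : Finset H).erase 1 with hE
  have hEm : ∀ s : H, s ∈ E ↔ (s : G) ≠ 1 := fun s => by simp [hE]
  set h := Nat.card H with hh
  have h3 : 3 ≤ h := by
    obtain ⟨x, hx, hx'⟩ := exists_orderOf_eq_of_ne_bot hH hne
    exact (Nat.succ_le_of_lt (lt_of_le_of_ne hp.out.two_le hp2.symm)).trans
      (Nat.le_of_dvd Nat.card_pos (hx' ▸ orderOf_dvd_natCard H hx))
  have k0 : ∀ x, ¬ p ∣ orderOf x → ∀ y ∈ E, κ x y = 0 := fun x hx y hy => by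
    rw [← hκ']
    exact sum_mul_conj_eq_zero_of_regular_singular hM (val_blockCoeff_principal_le_one hM) hx
      (dvd_orderOf_of_mem hH y.2 ((hEm y).1 hy))
  have k1 : ∀ x ∈ H, ∀ y ∈ H, ¬ IsConj x y → κ x y = 0 := fun x hx y hy hxy => by
    rw [← hκ']
    refine sum_mul_conj_eq_zero_of_val hM (val_blockCoeff_principal_le_one hM) ?_
    rwa [pPart_eq_of_isPPart (isPPart_self (orderOf_eq_pow_of_mem hH hx)),
      pPart_eq_of_isPPart (isPPart_self (orderOf_eq_pow_of_mem hH hy))]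
  have k2 : ∀ b ∈ H, ∀ Q : Subgroup G, IsPGroup p Q → Q ≤ centralizer ({b} : Set G) →
      (Nat.card Q : ℝ) ≤ (κ b b).re := fun b hb Q hQ hQb => by
    have h1 := sum_principal_section hM (orderOf_eq_pow_of_mem hH hb) (y := 1) (y' := 1)
      not_dvd_orderOf_one not_dvd_orderOf_one
    simp only [coe_one, mul_one] at h1
    rw [← hκ', h1, ← Nat.card_congr (subgroupOfEquivOfLe hQb).toEquiv]
    exact card_le_sum_principal hM (Amb.isPGroup_subgroupOf hQ _)
  have k3 : ∀ x y, IsConj x y → κ x y = κ x x := fun x y hxy =>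
    Finset.sum_congr rfl fun χ _ => by rw [χ.2.isClassFunction.eq_of_isConj hxy]
  have k4 : ∀ {g K k}, PairData p H g K k → ∀ s t : H, ∀ y ∈ E,
      κ (s * (k * t * k⁻¹)) y = κ (s * t) y := by
    intro g K k hK s t y hy
    obtain ⟨c, u, hu, e⟩ := hK.exists_conj hH s.2 t.2
    have hu' : ¬ p ∣ orderOf u := fun h => hK.cop (h.trans (orderOf_dvd_natCard K hu.1))
    by_cases hst : (s : G) * t = 1
    · rw [k0 _ _ y hy, k0 _ _ y hy]
      · rw [hst]; exact not_dvd_orderOf_one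
      · rwa [e, orderOf_conj_eq, hst, one_mul]
    · refine Finset.sum_congr rfl fun χ hχ => ?_
      have h1 := apply_mul_eq_of_mem_principal hM (orderOf_eq_pow_of_mem hH (mul_mem s.2 t.2))
        (Finset.mem_filter.1 hχ).2 (pPrimeCore p _) (Grp.not_dvd_card_pPrimeCore p _)
        (y := 1) not_dvd_orderOf_one (hO _ (mul_mem s.2 t.2) hst ⟨u, hu.2⟩
          (by rwa [← orderOf_coe]) (hK.gen u hu.1))
      simp only [coe_one, mul_one, one_mul] at h1
      rw [e, χ.2.isClassFunction, h1]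
  choose m hm using fun χ : IrrCharacter G => exists_nat_sum (H := H) χ.2.isCharacter
  choose d hd0 hd using fun χ : IrrCharacter G => χ.2.exists_nat_one
  have hU : ∀ χ : IrrCharacter G, ∑ y ∈ E, conj ((χ : G → ℂ) y) = h * m χ - d χ := by
    intro χ
    have := hm χ
    rw [← Finset.add_sum_erase _ _ (Finset.mem_univ 1), coe_one, hd] at this
    rw [← map_sum, eq_sub_of_add_eq' this]
    simp [hh]
  have hΦ : ∀ x, ∑ y ∈ E, κ x y = ∑ χ ∈ B, (χ : G → ℂ) x * (h * m χ - d χ) := by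
    intro x
    rw [Finset.sum_comm]
    simp only [← Finset.mul_sum, hU]
  have e1 : ∑ χ ∈ B, (d χ : ℝ) * (h * m χ - d χ) = 0 := by
    have := hΦ 1
    rw [Finset.sum_eq_zero (k0 1 not_dvd_orderOf_one)] at this
    simp only [hd] at this
    exact_mod_cast this.symm
  have hS : ∑ s : H, ∑ y ∈ E, κ s y = ((∑ χ ∈ B, h * m χ * (h * m χ - d χ) : ℝ) : ℂ) := by
    simp only [hΦ]
    rw [Finset.sum_comm]
    simp only [← Finset.sum_mul, hm]
    push_cast
    rfl
  have e2 : ∑ χ ∈ B, ((h : ℝ) * m χ) ^ 2 / d χ * (h * m χ - d χ) =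
      h * ∑ χ ∈ B, (h : ℝ) * m χ * (h * m χ - d χ) := by
    have h1 : ∀ a : G, ∑ s : H, ∑ t : H, ∑ y ∈ E, κ (s * (a * t * a⁻¹)) y =
        h * ∑ s : H, ∑ y ∈ E, κ s y := by
      intro a
      obtain ⟨K, k, hK⟩ := exists_pair hH hab hcl a
      rw [hh, Nat.card_eq_fintype_card, ← Finset.card_univ, ← nsmul_eq_mul, ← Finset.sum_const]
      refine Finset.sum_congr rfl fun s _ => ?_
      rw [hK.sum_eq (fun x => ∑ y ∈ E, κ (s * x) y),
        ← Equiv.sum_comp (Equiv.mulLeft s) (fun s : H => ∑ y ∈ E, κ s y)]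
      exact Finset.sum_congr rfl fun t _ => Finset.sum_congr rfl fun y hy => k4 hK s t y hy
    have h2 : ∀ χ : IrrCharacter G, ∑ a : G, ∑ s : H, ∑ t : H, (χ : G → ℂ) (s * (a * t * a⁻¹)) =
        Nat.card G * ((h * m χ) ^ 2 / d χ) := by
      intro χ
      have hd' : (d χ : ℂ) ≠ 0 := by exact_mod_cast (hd0 χ).ne'
      apply mul_left_cancel₀ hd'
      rw [mul_left_comm, mul_div_cancel₀ _ hd', ← hd, pow_two, ← hm, Finset.sum_comm,
        Finset.mul_sum, Finset.sum_mul_sum, Finset.mul_sum]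
      refine Finset.sum_congr rfl fun s _ => ?_
      rw [Finset.sum_comm, Finset.mul_sum, Finset.mul_sum]
      refine Finset.sum_congr rfl fun t _ => ?_
      rw [irr_one_mul_sum_conj χ.2, mul_assoc]
    have h4 : ∑ a : G, ∑ s : H, ∑ t : H, ∑ y ∈ E, κ (s * (a * t * a⁻¹)) y =
        Nat.card G * ∑ χ ∈ B, ((h : ℂ) * m χ) ^ 2 / d χ * (h * m χ - d χ) := by
      simp only [hΦ]
      simp only [Finset.sum_comm (t := B)]
      simp only [← Finset.sum_mul, h2]
      simp only [Finset.mul_sum, mul_assoc]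
    simp only [h1, Finset.sum_const, Finset.card_univ, nsmul_eq_mul,
      ← Nat.card_eq_fintype_card] at h4
    have h5 := mul_left_cancel₀ (card_ne_zero G) h4
    rw [hS] at h5
    apply Complex.ofReal_injective
    rw [Complex.ofReal_mul, Complex.ofReal_natCast, h5]
    push_cast
    rfl
  have hm1 : m (irrOne G) = 1 := by
    have h4 := hm (irrOne G)
    simp only [irrOne_apply, Finset.sum_const, Finset.card_univ, nsmul_eq_mul, mul_one,
      ← Nat.card_eq_fintype_card] at h4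
    have := mul_left_cancel₀ (card_ne_zero H) ((mul_one _).trans h4)
    exact_mod_cast this.symm
  have hd1 : d (irrOne G) = 1 := by
    have h4 := hd (irrOne G)
    rw [irrOne_apply] at h4
    exact_mod_cast h4.symm
  have h3' : (3 : ℝ) ≤ h := by exact_mod_cast h3
  have main := numeric B (o := irrOne G)
    (Finset.mem_filter.2 ⟨Finset.mem_univ _, irrOne_mem_principal hM⟩)
    (fun χ => m χ) (fun χ => d χ) h3' (fun χ => by exact_mod_cast hd0 χ) (by simp [hm1])
    (by simp [hd1]) (fun χ _ hχ => by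
      have := two_mul_le hp2 hH hab hcl χ.2 (fun h => hχ (Subtype.ext
        (eq_one_of_charKer_eq_top χ.2 (top_le_iff.1 (hncl.ge.trans
          (@normalClosure_le_normal _ _ _ _ (charKer_normal χ.2.isClassFunction) h))))))
        (hm χ) (hd χ)
      exact_mod_cast this) e1 e2
  have hS' : ∑ χ ∈ B, (h : ℝ) * m χ * (h * m χ - d χ) = ∑ s ∈ E, ∑ y ∈ E, (κ s y).re := by
    have := congrArg Complex.re hS
    rw [Complex.ofReal_re, ← Finset.add_sum_erase _ _ (Finset.mem_univ 1), coe_one,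
      Finset.sum_eq_zero (k0 1 not_dvd_orderOf_one), zero_add] at this
    simp only [← this, Complex.re_sum, hE]
  rw [hS'] at main
  have k5 : ∀ s : H, (h : ℝ) ≤ (κ s s).re := fun s => k2 s s.2 H hH (le_cent hab s.2)
  have k6 : ∀ s y : H, 0 ≤ (κ s y).re := fun s y => by
    by_cases hc : IsConj (s : G) y
    · rw [k3 _ _ hc]
      linarith [k5 s]
    · rw [k1 _ s.2 _ y.2 hc]
      simp
  have k7 : ∀ s ∈ E, (κ s s).re ≤ ∑ y ∈ E, (κ s y).re := fun s hs =>
    Finset.single_le_sum (f := fun y : H => (κ s y).re) (fun y _ => k6 s y) hs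
  have hcE : (E.card : ℝ) = h - 1 := by
    rw [hE, Finset.card_erase_of_mem (Finset.mem_univ _), Finset.card_univ,
      ← Nat.card_eq_fintype_card, Nat.cast_sub (by omega)]
    simp [hh]
  have fin : ¬ 2 * (h : ℝ) ≤ ∑ s ∈ E, (∑ y ∈ E, (κ s y).re - h) := by
    intro h4
    rw [Finset.sum_sub_distrib, Finset.sum_const, nsmul_eq_mul, hcE] at h4
    nlinarith
  have k8 : ∀ s ∈ E, 0 ≤ ∑ y ∈ E, (κ s y).re - h := fun s hs => by linarith [k5 s, k7 s hs]
  refine ⟨fun b hb t ht hbt => by_contra fun hne' => fin ?_,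
    fun b hb hb1 Q hQ hQb => by_contra fun hlt => fin ?_⟩
  · have hb1 : b ≠ 1 := by
      rintro rfl
      exact hne' (isConj_one_right.1 hbt).symm
    have ht1 : t ≠ 1 := by
      rintro rfl
      exact hne' (isConj_one_left.1 hbt)
    have hne2 : (⟨b, hb⟩ : H) ≠ ⟨t, ht⟩ := fun h => hne' (congrArg Subtype.val h)
    have hsub : ({⟨b, hb⟩, ⟨t, ht⟩} : Finset H) ⊆ E := by
      intro x hx
      rcases Finset.mem_insert.1 hx with rfl | hx
      · exact (hEm _).2 hb1
      · rw [Finset.mem_singleton.1 hx]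
        exact (hEm _).2 ht1
    have h5 : ∀ s : H, IsConj (s : G) b → 2 * (h : ℝ) ≤ ∑ y ∈ E, (κ s y).re := by
      intro s hs
      refine le_trans ?_ (Finset.sum_le_sum_of_subset_of_nonneg hsub fun y _ _ => k6 s y)
      rw [Finset.sum_pair hne2, k3 _ _ hs, k3 _ _ (hs.trans hbt)]
      linarith [k5 s]
    refine le_trans ?_ (Finset.sum_le_sum_of_subset_of_nonneg hsub fun y hy _ => k8 y hy)
    rw [Finset.sum_pair hne2]
    linarith [h5 ⟨b, hb⟩ (IsConj.refl _), h5 ⟨t, ht⟩ hbt.symm]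
  · refine le_trans ?_ (Finset.single_le_sum k8 ((hEm ⟨b, hb⟩).2 hb1))
    have h5 : (3 * h : ℝ) ≤ Nat.card Q := by exact_mod_cast not_lt.1 hlt
    linarith [k2 b hb Q hQ hQb, k7 ⟨b, hb⟩ ((hEm ⟨b, hb⟩).2 hb1)]

end Cfsg.Agent.ExC
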